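import Cfsg.Agent.H993.AbTool
import Cfsg.Agent.H805.NilHe
import Cfsg.Agent.BpSpor.HeThree
import Cfsg.Agent.H436.HeFive
import Cfsg.Agent.KFacts.He.TwoACent

/-!
# Abelian subgroups of He (helper805, for S2501)

`ab3_He` : `|A| ^ 3 < |G|` for abelian `A`.
-/

set_option autoImplicit false

namespace Cfsg.Agent.H805.Ab

open Cfsg Subgroup Cfsg.Agent.H498.Ab Cfsg.Agent.H993.AbTool Cfsg.Agent.OrdDiv
open Cfsg.Spor.He Cfsg.Agent.SporadicB.HePerm Cfsg.Agent.FixBN.HeStab Cfsg.Agent.KFacts.He.Lv Cfsg.Agent.H805.NilSp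

/-- conjugation of an abelian subgroup -/
theorem exists_conj_sub {G : Type*} [Group G] (A : Subgroup G) (hA : IsMulCommutative A) (g : G) :
    ∃ B : Subgroup G, IsMulCommutative B ∧ Nat.card B = Nat.card A ∧ ∀ a ∈ A, g * a * g⁻¹ ∈ B :=
  ⟨A.map (MulAut.conj g).toMonoidHom, comm_map _ hA,
    Subgroup.card_map_of_injective (MulAut.conj g).injective, fun a ha => ⟨a, ha, rfl⟩⟩

namespace He

theorem fin : Finite Spor.He := Nat.finite_of_card_ne_zero (by rw [KFacts.He.Classes.card_he]; norm_num)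

theorem fb_343 : Fb 343 Spor.He := by
  have := fin
  have h := fb_of_full (G := Spor.He) (p := 7) (e := 3) (by norm_num)
    (by rw [KFacts.He.Classes.card_he]; norm_num) CpAutHe.Seven.order1 (fun hd => by
      have h1 := Nat.le_of_dvd Nat.card_pos hd
      have h2 : Nat.card ↥(centralizer ({CpAutHe.Seven.x1} : Set Spor.He)) ≤ 196 := CpAutHe.Bound.card1
      norm_num at h1
      omega)
  norm_num at h
  exact h

theorem orderOf_a : orderOf (gn .a : Spor.He) = 2 := by
  have h2 : Fact (Nat.Prime 2) := ⟨Nat.prime_two⟩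
  refine orderOf_eq_prime ?_ ?_
  · rw [pow_two]
    exact KFacts.He.TwoACent.gn_mul_self .a
  · have h := CpAutHe.Seven.ne_one_of_act (w := [.a]) 8 (by decide +kernel)
    rwa [show wd [Gen.a] = gn Gen.a * 1 from rfl, mul_one] at h

theorem fb_1024 : Fb 1024 Spor.He := by
  have := fin
  have h := fb_of_full (G := Spor.He) (p := 2) (e := 10) (by norm_num)
    (by rw [KFacts.He.Classes.card_he]; norm_num) orderOf_a (fun hd => by
      have h1 := hd.trans H997.OutHe.card_cent_a
      norm_num at h1)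
  norm_num at h
  exact h

theorem at3_seventeen : At3 17 Spor.He := by
  have := fin
  refine at3_of_card (b := 17) (by norm_num) (by rw [KFacts.He.Classes.card_he]; norm_num) fun x hx => ?_
  exact (H547.SelfCent.HeRow.he ⟨MulEquiv.refl _⟩ KFacts.He.Classes.card_he hx).le

theorem at3_five : At3 5 Spor.He := by
  have := fin
  refine at3_of_card (b := 300) (by norm_num) (by rw [KFacts.He.Classes.card_he]; norm_num) fun x hx => ?_
  exact Nat.le_of_dvd (by norm_num) (H436.HeFive.cent5 x hx)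

theorem at3_fourteen : At3 14 Spor.He := by
  have := fin
  intro A hA hd
  obtain ⟨x, hx, -, hle⟩ := exists_le_cent (by norm_num : Nat.Prime 7) hA ((by norm_num : 7 ∣ 14).trans hd)
  have h1 : Nat.card ↥(centralizer ({x} : Set Spor.He)) ≤ 1176 := by
    refine CpAutHe.Seven.card_le hx ?_
    rw [Nat.not_odd_iff_even, even_iff_two_dvd]
    exact ((by norm_num : 2 ∣ 14).trans hd).trans (Subgroup.card_dvd_of_le hle)
  have h2 := (Nat.le_of_dvd Nat.card_pos (Subgroup.card_dvd_of_le hle)).trans h1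
  rw [KFacts.He.Classes.card_he]
  exact (Nat.pow_le_pow_left h2 3).trans_lt (by norm_num)

theorem at3_six : At3 6 Spor.He := by
  have := fin
  intro A hA hd
  have h2d : 2 ∣ Nat.card A := (by norm_num : 2 ∣ 6).trans hd
  by_cases h7 : 7 ∣ Nat.card A
  · refine at3_fourteen A hA ?_
    exact Nat.Coprime.mul_dvd_of_dvd_of_dvd (m := 2) (n := 7) (by norm_num) h2d h7
  obtain ⟨t, ht, htA, hle⟩ := exists_le_cent Nat.prime_two hA h2d
  obtain ⟨x, hx, hxA, -⟩ := exists_le_cent Nat.prime_three hA ((by norm_num : 3 ∣ 6).trans hd)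
  have htt : t * t = 1 := by rw [← pow_two, ← ht, pow_orderOf_eq_one]
  have ht1 : t ≠ 1 := by
    rintro rfl
    rw [orderOf_one] at ht
    omega
  have key : Nat.card A ≤ 1536 := by
    rcases KFacts.He.Classes.two_classes_a htt ht1 with ⟨g, hg⟩ | ⟨g, hg⟩
    · have h3 := Subgroup.card_dvd_of_le hle
      rw [← hg, card_cent_isConj (isConj_iff.2 ⟨g, rfl⟩), KFacts.He.Classes.card_centralizer] at h3
      have h4 : Nat.card A ∣ 3072 :=
        ((Nat.Prime.coprime_iff_not_dvd (by norm_num : Nat.Prime 7)).2 h7).symm.dvd_of_dvd_mul_left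
          (h3.trans (by norm_num : 21504 ∣ 7 * 3072))
      obtain ⟨c, hc⟩ := h4
      have hc1 : c ≠ 1 := by
        rintro rfl
        refine fb_1024 A hA ?_
        rw [mul_one] at hc
        rw [← hc]
        norm_num
      have hc0 : c ≠ 0 := by
        rintro rfl
        omega
      have h5 : Nat.card A * 2 ≤ Nat.card A * c := Nat.mul_le_mul_left _ (by omega)
      omega
    · obtain ⟨B, hB, hBc, hBm⟩ := exists_conj_sub A hA g⁻¹
      have ha : g⁻¹ * t * g⁻¹⁻¹ = gn .a := by
        rw [← hg]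
        show g⁻¹ * (g * gn .a * g⁻¹) * g⁻¹⁻¹ = gn .a
        group
      have haB : (gn .a : Spor.He) ∈ B := ha ▸ hBm t htA
      have hxB := hBm x hxA
      have h3 : orderOf (g⁻¹ * x * g⁻¹⁻¹) = 3 := by
        rw [show g⁻¹ * x * g⁻¹⁻¹ = MulAut.conj g⁻¹ x from rfl, MulEquiv.orderOf_eq, hx]
      have h4 := BpSpor.HeThree.card_a_three h3 (comm_iff.1 hB _ hxB _ haB)
      have h5 : B ≤ centralizer ({gn .a} : Set Spor.He) ⊓ centralizer ({g⁻¹ * x * g⁻¹⁻¹} : Set Spor.He) := by
        intro b hb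
        exact ⟨mem_centralizer_singleton_iff.2 (comm_iff.1 hB b hb _ haB),
          mem_centralizer_singleton_iff.2 (comm_iff.1 hB b hb _ hxB)⟩
      have h6 := Nat.le_of_dvd (by norm_num) ((Subgroup.card_dvd_of_le h5).trans h4)
      rw [hBc] at h6
      omega
  rw [KFacts.He.Classes.card_he]
  exact (Nat.pow_le_pow_left key 3).trans_lt (by norm_num)

end He

theorem ab3_He' : Ab3 Spor.He := by
  have := He.fin
  refine ab3_of_chk KFacts.He.Classes.card_he [(2, 10), (3, 3), (5, 2), (7, 3), (17, 1)] (by decide +kernel)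
    [17, 5, 14, 6] [343] ?_ ?_ (by decide +kernel)
  · intro p hp
    simp only [List.mem_cons, List.not_mem_nil, or_false] at hp
    rcases hp with rfl | rfl | rfl | rfl
    · exact He.at3_seventeen
    · exact He.at3_five
    · exact He.at3_fourteen
    · exact He.at3_six
  · intro m hm
    rw [List.mem_singleton] at hm
    subst hm
    exact He.fb_343

/-- **The abelian subgroups of the Held group.** -/
theorem ab3_He {G : Type*} [Group G] [Finite G] [IsSimpleGroup G] (h : Cfsg.Spor.IsoHe G) : Ab3 G := by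
  obtain ⟨e⟩ := h
  exact ab3_He'.congr e.symm

end Cfsg.Agent.H805.Ab
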