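import Cfsg.Agent.H993.AbTool
import Cfsg.Agent.H805.NilJ4
import Cfsg.Agent.H859.BigNum
import Cfsg.Agent.H859.CentC

/-!
# Abelian subgroups of J4 (helper805, for S2501)

`ab3_J4` : `|A| ^ 3 < |G|` for abelian `A`.
-/

set_option autoImplicit false

namespace Cfsg.Agent.H805.Ab

open Cfsg Subgroup Cfsg.Agent.H498.Ab Cfsg.Agent.H993.AbTool Cfsg.Agent.OrdDiv
open Cfsg.Agent.J4Type

/-- the centralizer of an element normalizes the subgroup generated by it -/
theorem cent_le_norm {G : Type*} [Group G] (x : G) :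
    centralizer ({x} : Set G) ≤ normalizer ((zpowers x : Subgroup G) : Set G) := by
  intro g hg
  have hgx : Commute g x := mem_centralizer_singleton_iff.1 hg
  rw [mem_normalizer_iff]
  intro h
  constructor
  · intro hh
    obtain ⟨k, rfl⟩ := mem_zpowers_iff.1 hh
    rw [(hgx.zpow_right k).eq, mul_inv_cancel_right]
    exact hh
  · intro hh
    obtain ⟨k, hk⟩ := mem_zpowers_iff.1 hh
    have h1 : h = x ^ k := by
      have h2 : g⁻¹ * (g * h * g⁻¹) * g = g⁻¹ * x ^ k * g := by rw [hk]
      have h3 : g⁻¹ * (g * h * g⁻¹) * g = h := by group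
      rw [← h3, h2, (hgx.zpow_right k).inv_left.eq, inv_mul_cancel_right]
    rw [h1]
    exact zpow_mem (mem_zpowers x) k

theorem cent_zpowers_eq {G : Type*} [Group G] (x : G) :
    centralizer ({x} : Set G) = centralizer ((zpowers x : Subgroup G) : Set G) := by
  refine le_antisymm ?_ (centralizer_le (by
    rintro y rfl
    exact mem_zpowers _))
  intro g hg
  rw [mem_centralizer_iff]
  rintro y ⟨k, rfl⟩
  have hgx : Commute g x := mem_centralizer_singleton_iff.1 hg
  exact (hgx.zpow_right k).eq.symm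

namespace J4R

theorem fin : Finite Spor.J4 := Nat.finite_of_card_ne_zero (by rw [NilSp.card_J4']; norm_num)

/-- the centralizer of `ρ` -/
theorem card_cent_rho {K : Type*} [Group K] [Finite K] (F : J4Type.Compl K) :
    Nat.card ↥(centralizer ({F.ρ} : Set K)) ∣ 5322240 := by
  have hle : centralizer ({F.ρ} : Set K) ≤ centralizer ({F.z} : Set K) := fun g hg =>
    mem_centralizer_singleton_iff.2 (H856.CentRho.cent_rho F (mem_centralizer_singleton_iff.1 hg))
  let f : ↥(centralizer ({F.ρ} : Set K)) →* M22d := (H856.SylowThree.Pd F).comp (inclusion hle)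
  have hker : f.ker.map (centralizer ({F.ρ} : Set K)).subtype ≤ zpowers (F.z * F.ρ) := by
    rintro _ ⟨c, hc, rfl⟩
    have h1 : F.P (inclusion hle c) = 1 := congrArg Subtype.val hc
    obtain ⟨q, hq, i, h2⟩ := (F.P_ker _).1 h1
    have h3 : (c : K) = q * F.ρ ^ i := h2
    have hcρ : (c : K) * F.ρ = F.ρ * c := mem_centralizer_singleton_iff.1 c.2
    have h4 : q = (c : K) * (F.ρ ^ i)⁻¹ := by rw [h3]; group
    have h5 : F.ρ * q = q * F.ρ := by
      have h6 : Commute (c : K) F.ρ := hcρ
      have h7 : Commute q F.ρ := by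
        rw [h4]
        exact h6.mul_left ((Commute.refl F.ρ).pow_left i).inv_left
      exact h7.symm.eq
    have hz3 : (F.z * F.ρ) ^ 3 = F.z := by
      have h : Commute F.z F.ρ := F.ρ_comm.symm
      have h8 : F.ρ ^ 3 = 1 := by rw [← F.ρ_order]; exact pow_orderOf_eq_one _
      have h9 : F.z ^ 2 = 1 := by rw [← F.z_order]; exact pow_orderOf_eq_one _
      rw [h.mul_pow, h8, mul_one, pow_succ, h9, one_mul]
    have hz4 : (F.z * F.ρ) ^ 4 = F.ρ := by
      have h : Commute F.z F.ρ := F.ρ_comm.symm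
      have h8 : F.ρ ^ 3 = 1 := by rw [← F.ρ_order]; exact pow_orderOf_eq_one _
      have h9 : F.z ^ 2 = 1 := by rw [← F.z_order]; exact pow_orderOf_eq_one _
      rw [h.mul_pow, pow_succ F.ρ 3, h8, one_mul, show (4 : ℕ) = 2 + 2 by norm_num, pow_add, h9, one_mul, one_mul]
    have hzm : F.z ∈ zpowers (F.z * F.ρ) := by
      have h := pow_mem (mem_zpowers (F.z * F.ρ)) 3
      rwa [hz3] at h
    have hρm : F.ρ ∈ zpowers (F.z * F.ρ) := by
      have h := pow_mem (mem_zpowers (F.z * F.ρ)) 4
      rwa [hz4] at h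
    show (c : K) ∈ zpowers (F.z * F.ρ)
    rw [h3]
    rcases F.ρ_fix q hq h5 with h | h
    · rw [h, one_mul]
      exact pow_mem hρm i
    · rw [h]
      exact mul_mem hzm (pow_mem hρm i)
  have h1 := Subgroup.card_dvd_of_le hker
  rw [card_map_of_injective (subtype_injective _), Nat.card_zpowers, H856.SylowThree.orderOf_zrho] at h1
  have h2 := f.ker.card_mul_index
  rw [index_ker] at h2
  have h3 : Nat.card f.range ∣ 887040 := by
    rw [← H856.NormT.card_D]
    exact card_subgroup_dvd_card _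
  rw [← h2]
  exact Nat.mul_dvd_mul h1 h3

theorem cd_three {x : Spor.J4} (hx : orderOf x = 3) : Nat.card ↥(centralizer ({x} : Set Spor.J4)) ∣ 5322240 := by
  have := fin
  obtain ⟨-, -, ⟨F⟩⟩ := KFacts.J4.Base.exists_full (K := Cfsg.Spor.J4) ⟨MulEquiv.refl _⟩
  rw [NilSp.card_cent_isConj (H856.SylowThree.one_class F.C F.C.ρ_order hx)]
  exact card_cent_rho F.C

theorem cd_five {x : Spor.J4} (hx : orderOf x = 5) : Nat.card ↥(centralizer ({x} : Set Spor.J4)) ∣ 26880 := by
  rw [← H859.BigCent.card_normalizer_five (P := zpowers x) (by rw [Nat.card_zpowers, hx])]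
  exact card_dvd_of_le (cent_le_norm x)

theorem cd_eleven : CD 11 [242, 31944] Spor.J4 := by
  intro x hx
  rcases H859.ClassEleven.isConj_or hx with h | h
  · refine ⟨242, by simp, ?_⟩
    rw [H859.ClassEleven.card_centralizer_conj h, H859.SylEleven.card_centralizer_x_eq]
  · refine ⟨31944, by simp, ?_⟩
    rw [H859.ClassEleven.card_centralizer_conj h]
    exact H859.CentC.card_D_dvd

theorem cd_big {p : ℕ} (h : ∀ {P : Subgroup Spor.J4}, Nat.card P = p →
    Nat.card (centralizer (P : Set Spor.J4)) = p) {x : Spor.J4} (hx : orderOf x = p) :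
    Nat.card ↥(centralizer ({x} : Set Spor.J4)) ∣ p := by
  rw [cent_zpowers_eq, h (by rw [Nat.card_zpowers, hx])]

end J4R

theorem ab3_J4' : Ab3 Spor.J4 := by
  have := J4R.fin
  refine ab3_of_chk3 NilSp.card_J4'
    [(2, 21), (3, 3), (5, 1), (7, 1), (11, 3), (23, 1), (29, 1), (31, 1), (37, 1), (43, 1)] (by decide +kernel)
    [(43, [43]), (37, [37]), (31, [31]), (29, [29]), (23, [23]), (11, [242, 31944]), (7, [2520]), (5, [26880]),
      (3, [5322240])] ?_ (by decide +kernel)
  intro d hd
  simp only [List.mem_cons, List.not_mem_nil, or_false] at hd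
  rcases hd with rfl | rfl | rfl | rfl | rfl | rfl | rfl | rfl | rfl
  · exact ca_of_cent (by norm_num) fun x hx => J4R.cd_big (fun h => (H859.BigNum.data43 h).1) hx
  · exact ca_of_cent (by norm_num) fun x hx => J4R.cd_big (fun h => (H859.BigNum.data37 h).1) hx
  · exact ca_of_cent (by norm_num) fun x hx => J4R.cd_big (fun h => (H859.BigNum.data31 h).1) hx
  · exact ca_of_cent (by norm_num) fun x hx => J4R.cd_big (fun h => (H859.BigNum.data29' h).1) hx
  · exact ca_of_cent (by norm_num) fun x hx => J4R.cd_big (fun h => (H859.BigNum.data23 h).1) hx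
  · exact CD.ca (by norm_num) J4R.cd_eleven
  · exact ca_of_cent (by norm_num) fun x hx => NilSp.cent_seven_J4 hx
  · exact ca_of_cent (by norm_num) fun x hx => J4R.cd_five hx
  · exact ca_of_cent (by norm_num) fun x hx => J4R.cd_three hx

/-- **The abelian subgroups of the fourth Janko group.** -/
theorem ab3_J4 {G : Type*} [Group G] [Finite G] [IsSimpleGroup G] (h : Cfsg.Spor.IsoJ4 G) : Ab3 G := by
  obtain ⟨e⟩ := h
  exact ab3_J4'.congr e.symm

end Cfsg.Agent.H805.Ab
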