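import Cfsg.Agent.TitsK.KDef

/-!
# A centralizer in the Sylow 2-subgroup of the Tits group (helper805, for S2501): the count

`w = 513 · 76186` has order 16, `w ^ 12` has the code `1863936` and exactly 128 elements of `UT ⊓ TT` commute with it.
-/

set_option autoImplicit false
set_option Elab.async false

namespace Cfsg.Agent.H805.AbT

open Cfsg.Agent.TitsK
open Cfsg.Agent.FourTwo.UCode (mulU)

/-- commuting with `w ^ 12`, in `TT` -/
def pC (e : ℕ) : Bool := cond (parB e) false (Nat.beq (mulU 1863936 e) (mulU e 1863936))

theorem cnt0 : cntP pC gens10 0 = 64 := by decide +kernel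
theorem cnt1 : cntP pC gens10 74 = 0 := by decide +kernel
theorem cnt2 : cntP pC gens10 513 = 0 := by decide +kernel
theorem cnt3 : cntP pC gens10 140875 = 64 := by decide +kernel

theorem cnt : cntP pC gens12 0 = 128 := cnt_of4 cnt0 cnt1 cnt2 cnt3 rfl

theorem w1 : mulU 513 76186 = 16631707 := by decide +kernel
theorem w2 : mulU 16631707 16631707 = 6775924 := by decide +kernel
theorem w4 : mulU 6775924 6775924 = 9203968 := by decide +kernel
theorem w8 : mulU 9203968 9203968 = 9437184 := by decide +kernel
theorem w12 : mulU 9437184 9203968 = 1863936 := by decide +kernel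

end Cfsg.Agent.H805.AbT
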