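import Mathlib

namespace Cfsg.Agent.H805.LThreeFour

open Matrix

/-- A concrete model of the field with four elements. -/
inductive M4 : Type
  | z | o | w | v
  deriving DecidableEq

instance : Fintype M4 := ⟨{M4.z, M4.o, M4.w, M4.v}, by intro x; cases x <;> decide⟩

namespace M4

def add : M4 → M4 → M4
  | z, a => a
  | a, z => a
  | o, o => z
  | w, w => z
  | v, v => z
  | o, w => v
  | w, o => v
  | o, v => w
  | v, o => w
  | w, v => o
  | v, w => o

def mul : M4 → M4 → M4
  | z, _ => z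
  | _, z => z
  | o, a => a
  | a, o => a
  | w, w => v
  | v, v => w
  | w, v => o
  | v, w => o

def inv : M4 → M4
  | z => z
  | o => o
  | w => v
  | v => w

instance : Zero M4 := ⟨z⟩
instance : One M4 := ⟨o⟩
instance : Add M4 := ⟨add⟩
instance : Mul M4 := ⟨mul⟩
instance : Neg M4 := ⟨id⟩
instance : Inv M4 := ⟨inv⟩

instance : CommRing M4 where
  add_assoc := by decide
  zero_add := by decide
  add_zero := by decide
  add_comm := by decide
  mul_assoc := by decide
  one_mul := by decide
  mul_one := by decide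
  mul_comm := by decide
  left_distrib := by decide
  right_distrib := by decide
  zero_mul := by decide
  mul_zero := by decide
  neg_add_cancel := by decide
  nsmul := nsmulRec
  zsmul := zsmulRec

instance : Field M4 where
  inv := inv
  exists_pair_ne := ⟨z, o, by decide⟩
  mul_inv_cancel := by decide
  inv_zero := by decide
  nnqsmul := _
  nnqsmul_def := fun _ _ => rfl
  qsmul := _
  qsmul_def := fun _ _ => rfl

theorem card_eq : Fintype.card M4 = 4 := by decide

end M4

/-- The shape of a centralizer, from a parametrisation. -/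
theorem card_cent_of_param {P : Type} (X : SpecialLinearGroup (Fin 3) M4)
    (f : P → Matrix (Fin 3) (Fin 3) M4) (hdet : ∀ p, (f p).det = 1)
    (hcomm : ∀ p, f p * X.1 = X.1 * f p) (hinj : Function.Injective f)
    (hsurj : ∀ g : Matrix (Fin 3) (Fin 3) M4, g.det = 1 → g * X.1 = X.1 * g → ∃ p, f p = g) :
    Nat.card (Subgroup.centralizer ({X} : Set (SpecialLinearGroup (Fin 3) M4))) =
      Nat.card P := by
  let F : P → Subgroup.centralizer ({X} : Set (SpecialLinearGroup (Fin 3) M4)) := fun p =>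
    ⟨(⟨f p, hdet p⟩ : SpecialLinearGroup (Fin 3) M4), 
      Subgroup.mem_centralizer_iff.mpr (by
        intro h hh
        rw [Set.mem_singleton_iff] at hh
        subst hh
        exact Subtype.ext (hcomm p).symm)⟩
  have hF : ∀ p, (F p).1.1 = f p := fun p => rfl
  symm
  refine Nat.card_eq_of_bijective F ⟨?_, ?_⟩
  · intro p q hpq
    apply hinj
    rw [← hF p, ← hF q, hpq]
  · rintro ⟨g, hg⟩
    have hg2 := Subgroup.mem_centralizer_iff.mp hg X rfl
    have := congrArg Subtype.val hg2
    obtain ⟨p, hp⟩ := hsurj g.1 g.2 this.symm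
    refine ⟨p, ?_⟩
    apply Subtype.ext
    apply Subtype.ext
    exact hp

/-! ### The four semiregular elements -/

def m1 (p : M4 × M4 × M4 × M4) : Matrix (Fin 3) (Fin 3) M4 :=
  !![p.1, p.2.1, p.2.2.1; 0, p.1, p.2.2.2; 0, 0, p.1]

def X1 : SpecialLinearGroup (Fin 3) M4 :=
  ⟨!![1, 0, 1; 0, 1, 0; 0, 0, 1], by simp [det_fin_three]⟩

theorem aux1 : ∀ a b : M4, a * b * a = 1 → b = a ∧ a * a * a = 1 := by decide

theorem cent1 : Nat.card (Subgroup.centralizer ({X1} : Set (SpecialLinearGroup (Fin 3) M4))) =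
    192 := by
  rw [card_cent_of_param (P := {p : M4 × M4 × M4 × M4 // p.1 * p.1 * p.1 = 1}) X1
    (fun p => m1 p.1)]
  · rw [Nat.card_eq_fintype_card]
    decide +kernel
  · rintro ⟨⟨a, b, c, d⟩, h⟩
    simpa [m1, det_fin_three] using h
  · rintro ⟨⟨a, b, c, d⟩, h⟩
    ext i j
    fin_cases i <;> fin_cases j <;> simp [m1, X1, Matrix.mul_apply, Fin.sum_univ_three, add_comm]
  · rintro ⟨⟨a, b, c, d⟩, h⟩ ⟨⟨a', b', c', d'⟩, h'⟩ hh
    have e1 := congrFun (congrFun hh 0) 0
    have e2 := congrFun (congrFun hh 0) 1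
    have e3 := congrFun (congrFun hh 0) 2
    have e4 := congrFun (congrFun hh 1) 2
    simp [m1] at e1 e2 e3 e4
    simp [e1, e2, e3, e4]
  · intro g hg hc
    have c00 := congrFun (congrFun hc 0) 0
    have c01 := congrFun (congrFun hc 0) 1
    have c02 := congrFun (congrFun hc 0) 2
    have c12 := congrFun (congrFun hc 1) 2
    simp [X1, Matrix.mul_apply, Fin.sum_univ_three] at c00 c01 c02 c12
    have h22 : g 2 2 = g 0 0 := by linear_combination -c02
    rw [det_fin_three, c00, c01, c12, h22] at hg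
    simp only [mul_zero, zero_mul, sub_zero, add_zero] at hg
    obtain ⟨h11, h3⟩ := aux1 _ _ hg
    refine ⟨⟨(g 0 0, g 0 1, g 0 2, g 1 2), h3⟩, ?_⟩
    ext i j
    fin_cases i <;> fin_cases j <;> simp [m1, c00, c01, c12, h11, h22]

def m2 (p : M4 × M4 × M4) : Matrix (Fin 3) (Fin 3) M4 :=
  !![p.1, p.2.1, p.2.2; 0, p.1, p.2.1; 0, 0, p.1]

def X2 : SpecialLinearGroup (Fin 3) M4 :=
  ⟨!![1, 1, 0; 0, 1, 1; 0, 0, 1], by simp [det_fin_three]⟩

theorem cent2 : Nat.card (Subgroup.centralizer ({X2} : Set (SpecialLinearGroup (Fin 3) M4))) =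
    48 := by
  rw [card_cent_of_param (P := {p : M4 × M4 × M4 // p.1 * p.1 * p.1 = 1}) X2
    (fun p => m2 p.1)]
  · rw [Nat.card_eq_fintype_card]
    decide +kernel
  · rintro ⟨⟨a, b, c⟩, h⟩
    simpa [m2, det_fin_three] using h
  · rintro ⟨⟨a, b, c⟩, h⟩
    ext i j
    fin_cases i <;> fin_cases j <;> simp [m2, X2, Matrix.mul_apply, Fin.sum_univ_three, add_comm]
  · rintro ⟨⟨a, b, c⟩, h⟩ ⟨⟨a', b', c'⟩, h'⟩ hh
    have e1 := congrFun (congrFun hh 0) 0
    have e2 := congrFun (congrFun hh 0) 1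
    have e3 := congrFun (congrFun hh 0) 2
    simp [m2] at e1 e2 e3
    simp [e1, e2, e3]
  · intro g hg hc
    have c00 := congrFun (congrFun hc 0) 0
    have c01 := congrFun (congrFun hc 0) 1
    have c02 := congrFun (congrFun hc 0) 2
    have c10 := congrFun (congrFun hc 1) 0
    have c11 := congrFun (congrFun hc 1) 1
    have c12 := congrFun (congrFun hc 1) 2
    have c20 := congrFun (congrFun hc 2) 0
    have c21 := congrFun (congrFun hc 2) 1
    have c22 := congrFun (congrFun hc 2) 2
    simp [X2, Matrix.mul_apply, Fin.sum_univ_three] at c00 c01 c02 c10 c11 c12 c20 c21 c22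
    have h11 : g 1 1 = g 0 0 := by linear_combination -c01
    have h12 : g 1 2 = g 0 1 := by linear_combination -c02
    have h22 : g 2 2 = g 0 0 := by linear_combination -c12 - c01
    rw [det_fin_three, c00, c10, c22, h11, h12, h22] at hg
    simp only [mul_zero, zero_mul, sub_zero, add_zero] at hg
    refine ⟨⟨(g 0 0, g 0 1, g 0 2), hg⟩, ?_⟩
    ext i j
    fin_cases i <;> fin_cases j <;> simp [m2, c00, c10, c22, h11, h12, h22]

def m7 (p : M4 × M4 × M4) : Matrix (Fin 3) (Fin 3) M4 :=
  !![p.1, p.2.2, p.2.1 + p.2.2; p.2.1, p.1, p.2.2; p.2.2, p.2.1 + p.2.2, p.1 + p.2.1 + p.2.2]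

def X7 : SpecialLinearGroup (Fin 3) M4 :=
  ⟨!![0, 0, 1; 1, 0, 0; 0, 1, 1], by simp [det_fin_three]⟩

def n7 (p : M4 × M4 × M4) : M4 :=
  p.1 * p.1 * (p.1 + p.2.1 + p.2.2) - p.1 * p.2.2 * (p.2.1 + p.2.2) -
    p.2.2 * p.2.1 * (p.1 + p.2.1 + p.2.2) + p.2.2 * p.2.2 * p.2.2 +
    (p.2.1 + p.2.2) * p.2.1 * (p.2.1 + p.2.2) - (p.2.1 + p.2.2) * p.1 * p.2.2

theorem det7 (p : M4 × M4 × M4) : (m7 p).det = n7 p := by
  rw [det_fin_three]
  simp [m7, n7]

theorem cent7 : Nat.card (Subgroup.centralizer ({X7} : Set (SpecialLinearGroup (Fin 3) M4))) =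
    21 := by
  rw [card_cent_of_param (P := {p : M4 × M4 × M4 // n7 p = 1}) X7
    (fun p => m7 p.1)]
  · rw [Nat.card_eq_fintype_card]
    decide +kernel
  · rintro ⟨⟨a, b, c⟩, h⟩
    rw [det7]; exact h
  · rintro ⟨⟨a, b, c⟩, h⟩
    ext i j
    fin_cases i <;> fin_cases j <;>
      simp [m7, X7, Matrix.mul_apply, Fin.sum_univ_three, add_comm, add_left_comm]
  · rintro ⟨⟨a, b, c⟩, h⟩ ⟨⟨a', b', c'⟩, h'⟩ hh
    have e1 := congrFun (congrFun hh 0) 0
    have e2 := congrFun (congrFun hh 1) 0
    have e3 := congrFun (congrFun hh 2) 0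
    simp [m7] at e1 e2 e3
    simp [e1, e2, e3]
  · intro g hg hc
    have c00 := congrFun (congrFun hc 0) 0
    have c01 := congrFun (congrFun hc 0) 1
    have c10 := congrFun (congrFun hc 1) 0
    have c11 := congrFun (congrFun hc 1) 1
    have c20 := congrFun (congrFun hc 2) 0
    have c21 := congrFun (congrFun hc 2) 1
    simp [X7, Matrix.mul_apply, Fin.sum_univ_three] at c00 c01 c10 c11 c20 c21
    have h02 : g 0 2 = g 1 0 + g 2 0 := by linear_combination c01 + c20
    have h12 : g 1 2 = g 2 0 := by linear_combination c11 + c00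
    have h22 : g 2 2 = g 0 0 + g 1 0 + g 2 0 := by linear_combination c21 + c10 + c20
    have hgm : m7 (g 0 0, g 1 0, g 2 0) = g := by
      ext i j
      fin_cases i <;> fin_cases j <;> simp [m7, c00, c10, c20, h02, h12, h22]
    refine ⟨⟨(g 0 0, g 1 0, g 2 0), ?_⟩, hgm⟩
    rw [← det7, hgm, hg]

def m5 (p : M4 × M4 × M4) : Matrix (Fin 3) (Fin 3) M4 :=
  !![p.1, 0, 0; 0, p.2.1, p.2.2; 0, p.2.2, p.2.1 + M4.w * p.2.2]

def X5 : SpecialLinearGroup (Fin 3) M4 :=
  ⟨!![1, 0, 0; 0, 0, 1; 0, 1, M4.w], by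
    rw [det_fin_three]
    decide⟩

def n5 (p : M4 × M4 × M4) : M4 :=
  p.1 * p.2.1 * (p.2.1 + M4.w * p.2.2) - p.1 * p.2.2 * p.2.2

theorem det5 (p : M4 × M4 × M4) : (m5 p).det = n5 p := by
  rw [det_fin_three]
  simp [m5, n5]

theorem w_mul : ∀ a : M4, M4.w * a = 0 → a = 0 := by decide

theorem add_self : ∀ a : M4, a + a = 0 := by decide

theorem cent5 : Nat.card (Subgroup.centralizer ({X5} : Set (SpecialLinearGroup (Fin 3) M4))) =
    15 := by
  rw [card_cent_of_param (P := {p : M4 × M4 × M4 // n5 p = 1}) X5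
    (fun p => m5 p.1)]
  · rw [Nat.card_eq_fintype_card]
    decide +kernel
  · rintro ⟨⟨a, b, c⟩, h⟩
    rw [det5]; exact h
  · rintro ⟨⟨a, b, c⟩, h⟩
    ext i j
    fin_cases i <;> fin_cases j <;>
      simp [m5, X5, Matrix.mul_apply, Fin.sum_univ_three, add_comm] <;> ring
  · rintro ⟨⟨a, b, c⟩, h⟩ ⟨⟨a', b', c'⟩, h'⟩ hh
    have e1 := congrFun (congrFun hh 0) 0
    have e2 := congrFun (congrFun hh 1) 1
    have e3 := congrFun (congrFun hh 1) 2
    simp [m5] at e1 e2 e3
    simp [e1, e2, e3]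
  · intro g hg hc
    have c00 := congrFun (congrFun hc 0) 0
    have c01 := congrFun (congrFun hc 0) 1
    have c02 := congrFun (congrFun hc 0) 2
    have c10 := congrFun (congrFun hc 1) 0
    have c11 := congrFun (congrFun hc 1) 1
    have c12 := congrFun (congrFun hc 1) 2
    have c20 := congrFun (congrFun hc 2) 0
    have c21 := congrFun (congrFun hc 2) 1
    have c22 := congrFun (congrFun hc 2) 2
    simp [X5, Matrix.mul_apply, Fin.sum_univ_three] at c00 c01 c02 c10 c11 c12 c20 c21 c22
    have h01 : g 0 1 = 0 := w_mul _ (by linear_combination c02 + c01 - M4.w * c01)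
    have h02 : g 0 2 = 0 := by rw [c01, h01]
    have h20 : g 2 0 = 0 := w_mul _ (by linear_combination -c10 - c20)
    have h10 : g 1 0 = 0 := by rw [c10, h20]
    have hgm : m5 (g 0 0, g 1 1, g 1 2) = g := by
      ext i j
      fin_cases i <;> fin_cases j <;> simp [m5, h01, h02, h20, h10, ← c12, ← c11, mul_comm]
    refine ⟨⟨(g 0 0, g 1 1, g 1 2), ?_⟩, hgm⟩
    rw [← det5, hgm, hg]

/-! ### Passage to the quotient -/

theorem tr_lemma (g gi x : Matrix (Fin 3) (Fin 3) M4) (r : M4) (h : g * x = (x * g) * scalar (Fin 3) r)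
    (h1 : g * gi = 1) : x.trace = r * x.trace := by
  have h2 : gi * g = 1 := mul_eq_one_comm.mp h1
  have h3 : g * x * gi = r • x := by
    rw [h, ← (scalar_commute r (fun _ => mul_comm _ _) (x * g)).eq, scalar_apply,
      ← smul_eq_diagonal_mul, Matrix.smul_mul, Matrix.mul_assoc, h1, mul_one]
  have h4 := congrArg trace h3
  rw [trace_mul_cycle, trace_smul, h2, one_mul, smul_eq_mul] at h4
  exact h4

theorem comm_iff (X : SpecialLinearGroup (Fin 3) M4) (htr : X.1.trace ≠ 0)
    (g : SpecialLinearGroup (Fin 3) M4) :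
    (QuotientGroup.mk g : ProjectiveSpecialLinearGroup (Fin 3) M4) ∈
      Subgroup.centralizer ({(QuotientGroup.mk X : ProjectiveSpecialLinearGroup (Fin 3) M4)} :
      Set (ProjectiveSpecialLinearGroup (Fin 3) M4)) ↔
    g ∈ Subgroup.centralizer ({X} : Set (SpecialLinearGroup (Fin 3) M4)) := by
  rw [Subgroup.mem_centralizer_iff, Subgroup.mem_centralizer_iff]
  constructor
  · intro h x hx
    rw [Set.mem_singleton_iff] at hx
    subst hx
    have h1 := h _ rfl
    have h2 : (QuotientGroup.mk (x * g) : ProjectiveSpecialLinearGroup (Fin 3) M4) =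
        QuotientGroup.mk (g * x) := h1
    rw [QuotientGroup.eq] at h2
    obtain ⟨r, hr, hr2⟩ := Matrix.SpecialLinearGroup.mem_center_iff.mp h2
    have h3 : g * x = (x * g) * ((x * g)⁻¹ * (g * x)) := by group
    have h4 : g.1 * x.1 = (x.1 * g.1) * scalar (Fin 3) r := by
      rw [hr2]
      exact congrArg Subtype.val h3
    have h6 := tr_lemma g.1 g⁻¹.1 x.1 r h4 (congrArg Subtype.val (mul_inv_cancel g))
    have h8 : r = 1 := by
      have : (r - 1) * x.1.trace = 0 := by linear_combination -h6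
      rcases mul_eq_zero.mp this with h | h
      · exact sub_eq_zero.mp h
      · exact absurd h htr
    rw [h8] at h4
    simp at h4
    exact Subtype.ext h4.symm
  · intro h x hx
    rw [Set.mem_singleton_iff] at hx
    subst hx
    exact congrArg (QuotientGroup.mk' (Subgroup.center (SpecialLinearGroup (Fin 3) M4)))
      (h X rfl)

theorem idx (X : SpecialLinearGroup (Fin 3) M4) (htr : X.1.trace ≠ 0) :
    (Subgroup.centralizer ({(QuotientGroup.mk X : ProjectiveSpecialLinearGroup (Fin 3) M4)} :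
      Set (ProjectiveSpecialLinearGroup (Fin 3) M4))).index =
    (Subgroup.centralizer ({X} : Set (SpecialLinearGroup (Fin 3) M4))).index := by
  rw [← Subgroup.index_comap_of_surjective _
    (QuotientGroup.mk'_surjective (Subgroup.center (SpecialLinearGroup (Fin 3) M4)))]
  congr 1
  ext g
  exact comm_iff X htr g

/-- The set of noncentral class sizes. -/
def sizes (G : Type) [Group G] : Set ℕ :=
  {k : ℕ | ∃ x : G, x ∉ Subgroup.center G ∧ k = (Subgroup.centralizer ({x} : Set G)).index}

theorem sizes_sub {G H : Type} [Group G] [Group H] (e : G ≃* H) : sizes G ⊆ sizes H := by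
  rintro k ⟨x, hx, rfl⟩
  refine ⟨e x, ?_, ?_⟩
  · intro h
    apply hx
    rw [Subgroup.mem_center_iff] at h ⊢
    intro g
    apply e.injective
    rw [map_mul, map_mul]
    exact h (e g)
  · rw [← Subgroup.index_comap_of_surjective (f := e.toMonoidHom) _ e.surjective]
    congr 1
    ext g
    rw [Subgroup.mem_comap, Subgroup.mem_centralizer_iff, Subgroup.mem_centralizer_iff]
    constructor
    · intro h y hy
      rw [Set.mem_singleton_iff] at hy
      subst hy
      have := h x rfl
      have := congrArg e this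
      rw [map_mul, map_mul] at this
      exact this
    · intro h y hy
      rw [Set.mem_singleton_iff] at hy
      subst hy
      have := h (e y) rfl
      apply e.injective
      rw [map_mul, map_mul]
      exact this

def X3 : SpecialLinearGroup (Fin 3) M4 :=
  ⟨!![1, 0, 0; 0, M4.w, 0; 0, 0, M4.v], by
    rw [det_fin_three]
    decide⟩

def W3 : SpecialLinearGroup (Fin 3) M4 :=
  ⟨!![M4.w, 0, 0; 0, M4.w, 0; 0, 0, M4.w], by
    rw [det_fin_three]
    decide⟩

instance : Finite (SpecialLinearGroup (Fin 3) M4) := Subtype.finite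

theorem W3_mem : W3 ∈ Subgroup.center (SpecialLinearGroup (Fin 3) M4) := by
  rw [Matrix.SpecialLinearGroup.mem_center_iff]
  refine ⟨M4.w, by decide, ?_⟩
  ext i j
  fin_cases i <;> fin_cases j <;> simp [W3]

theorem W3_pow : W3 ^ 3 = 1 := by
  apply Subtype.ext
  rw [pow_three]
  change (W3.1 * (W3.1 * W3.1)) = 1
  ext i j
  fin_cases i <;> fin_cases j <;> simp [W3, Matrix.mul_apply, Fin.sum_univ_three] <;> rfl

theorem W3_ne : W3 ≠ 1 := by
  intro h
  have := congrFun (congrFun (congrArg Subtype.val h) 0) 0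
  simp [W3] at this

theorem three_dvd_center : 3 ∣ Nat.card (Subgroup.center (SpecialLinearGroup (Fin 3) M4)) := by
  have : Fact (Nat.Prime 3) := ⟨by norm_num⟩
  have h := orderOf_eq_prime W3_pow W3_ne
  have h2 := Subgroup.orderOf_dvd_natCard _ W3_mem
  rwa [h] at h2

theorem X3_pow : X3 ^ 3 = 1 := by
  apply Subtype.ext
  rw [pow_three]
  change (X3.1 * (X3.1 * X3.1)) = 1
  ext i j
  fin_cases i <;> fin_cases j <;> simp [X3, Matrix.mul_apply, Fin.sum_univ_three] <;> decide

theorem tr1 : X1.1.trace ≠ 0 := by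
  simp [X1, Matrix.trace, Fin.sum_univ_three]; decide

theorem tr2 : X2.1.trace ≠ 0 := by
  simp [X2, Matrix.trace, Fin.sum_univ_three]; decide

theorem tr7 : X7.1.trace ≠ 0 := by
  simp [X7, Matrix.trace, Fin.sum_univ_three]

theorem tr5 : X5.1.trace ≠ 0 := by
  simp [X5, Matrix.trace, Fin.sum_univ_three]; decide

/-- The image of `X3` is not central. -/
theorem X3_not_central : (QuotientGroup.mk X3 : ProjectiveSpecialLinearGroup (Fin 3) M4) ∉
    Subgroup.center (ProjectiveSpecialLinearGroup (Fin 3) M4) := by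
  intro h
  have h1 : (QuotientGroup.mk X3 : ProjectiveSpecialLinearGroup (Fin 3) M4) ∈
      Subgroup.centralizer ({(QuotientGroup.mk X1 : ProjectiveSpecialLinearGroup (Fin 3) M4)} :
      Set (ProjectiveSpecialLinearGroup (Fin 3) M4)) := by
    rw [Subgroup.mem_centralizer_iff]
    intro g _
    exact Subgroup.mem_center_iff.mp h g
  rw [comm_iff X1 tr1, Subgroup.mem_centralizer_iff] at h1
  have h2 := congrFun (congrFun (congrArg Subtype.val (h1 X1 rfl)) 0) 2
  change (X1.1 * X3.1) 0 2 = (X3.1 * X1.1) 0 2 at h2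
  simp [X1, X3, Matrix.mul_apply, Fin.sum_univ_three] at h2

theorem mem_sizes (X : SpecialLinearGroup (Fin 3) M4) (htr : X.1.trace ≠ 0) (c : ℕ)
    (hc : Nat.card (Subgroup.centralizer ({X} : Set (SpecialLinearGroup (Fin 3) M4))) = c)
    (hc2 : Nat.card (SpecialLinearGroup (Fin 3) M4) ≠ c) :
    ∃ k, k ∈ sizes (ProjectiveSpecialLinearGroup (Fin 3) M4) ∧
      c * k = Nat.card (SpecialLinearGroup (Fin 3) M4) := by
  have hck := Subgroup.card_mul_index
    (Subgroup.centralizer ({X} : Set (SpecialLinearGroup (Fin 3) M4)))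
  rw [hc] at hck
  refine ⟨_, ⟨QuotientGroup.mk X, ?_, (idx X htr).symm⟩, hck⟩
  intro h
  have h1 : (Subgroup.centralizer ({(QuotientGroup.mk X : ProjectiveSpecialLinearGroup (Fin 3) M4)} :
      Set (ProjectiveSpecialLinearGroup (Fin 3) M4))).index = 1 := by
    rw [Subgroup.index_eq_one, eq_top_iff]
    intro g _
    rw [Subgroup.mem_centralizer_iff]
    intro y hy
    rw [Set.mem_singleton_iff] at hy
    subst hy
    exact (Subgroup.mem_center_iff.mp h g).symm
  rw [idx X htr] at h1
  rw [h1, mul_one] at hck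
  exact hc2 hck.symm

theorem five_M4 : 5 ≤ Set.ncard (sizes (ProjectiveSpecialLinearGroup (Fin 3) M4)) := by
  classical
  have d1 : 192 ∣ Nat.card (SpecialLinearGroup (Fin 3) M4) := by
    rw [← cent1]; exact Subgroup.card_subgroup_dvd_card _
  have d7 : 21 ∣ Nat.card (SpecialLinearGroup (Fin 3) M4) := by
    rw [← cent7]; exact Subgroup.card_subgroup_dvd_card _
  have d5 : 15 ∣ Nat.card (SpecialLinearGroup (Fin 3) M4) := by
    rw [← cent5]; exact Subgroup.card_subgroup_dvd_card _
  have hpos : 0 < Nat.card (SpecialLinearGroup (Fin 3) M4) := Nat.card_pos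
  obtain ⟨k1, m1, e1⟩ := mem_sizes X1 tr1 192 cent1 (by omega)
  obtain ⟨k2, m2, e2⟩ := mem_sizes X2 tr2 48 cent2 (by omega)
  obtain ⟨k7, m7, e7⟩ := mem_sizes X7 tr7 21 cent7 (by omega)
  obtain ⟨k5, m5, e5⟩ := mem_sizes X5 tr5 15 cent5 (by omega)
  -- the element of order three
  have h3 : ∃ k3, k3 ∈ sizes (ProjectiveSpecialLinearGroup (Fin 3) M4) ∧
      ∃ q, 9 * q * k3 = Nat.card (SpecialLinearGroup (Fin 3) M4) := by
    have : Fact (Nat.Prime 3) := ⟨by norm_num⟩
    set x : ProjectiveSpecialLinearGroup (Fin 3) M4 := QuotientGroup.mk X3 with hx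
    have hx3 : x ^ 3 = 1 := by
      rw [hx, ← QuotientGroup.mk_pow, X3_pow]; rfl
    have hx1 : x ≠ 1 := by
      intro h
      apply X3_not_central
      rw [← hx, h]
      exact Subgroup.one_mem _
    have ho := orderOf_eq_prime hx3 hx1
    have hdvd : 3 ∣ Nat.card (Subgroup.centralizer ({x} :
        Set (ProjectiveSpecialLinearGroup (Fin 3) M4))) := by
      have hm : x ∈ Subgroup.centralizer ({x} :
          Set (ProjectiveSpecialLinearGroup (Fin 3) M4)) := by
        rw [Subgroup.mem_centralizer_iff]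
        intro y hy
        rw [Set.mem_singleton_iff] at hy
        rw [hy]
      have h2 := Subgroup.orderOf_dvd_natCard _ hm
      rwa [ho] at h2
    obtain ⟨c, hc⟩ := hdvd
    obtain ⟨z, hz⟩ := three_dvd_center
    have hk := Subgroup.card_mul_index (Subgroup.centralizer ({x} :
        Set (ProjectiveSpecialLinearGroup (Fin 3) M4)))
    have hq := Subgroup.card_eq_card_quotient_mul_card_subgroup
      (Subgroup.center (SpecialLinearGroup (Fin 3) M4))
    refine ⟨_, ⟨x, X3_not_central, rfl⟩, c * z, ?_⟩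
    rw [hq, hz]
    change _ = Nat.card (ProjectiveSpecialLinearGroup (Fin 3) M4) * _
    rw [← hk, hc]
    ring
  obtain ⟨k3, m3, q, e3⟩ := h3
  have hfin : (sizes (ProjectiveSpecialLinearGroup (Fin 3) M4)).Finite := by
    have : sizes (ProjectiveSpecialLinearGroup (Fin 3) M4) ⊆
        Set.range (fun x : ProjectiveSpecialLinearGroup (Fin 3) M4 =>
        (Subgroup.centralizer ({x} : Set (ProjectiveSpecialLinearGroup (Fin 3) M4))).index) := by
      rintro k ⟨x, -, rfl⟩
      exact ⟨x, rfl⟩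
    exact (Set.finite_range _).subset this
  have hsub : (({k1, k2, k7, k5, k3} : Finset ℕ) : Set ℕ) ⊆
      sizes (ProjectiveSpecialLinearGroup (Fin 3) M4) := by
    intro k hk
    simp only [Finset.coe_insert, Finset.coe_singleton, Set.mem_insert_iff,
      Set.mem_singleton_iff] at hk
    rcases hk with rfl | rfl | rfl | rfl | rfl
    exacts [m1, m2, m7, m5, m3]
  have := Set.ncard_le_ncard hsub hfin
  rw [Set.ncard_coe_finset] at this
  refine le_trans (le_of_eq ?_) this
  have hk3 : 0 < k3 := by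
    rcases Nat.eq_zero_or_pos k3 with h | h
    · rw [h, mul_zero] at e3
      exact absurd e3.symm hpos.ne'
    · exact h
  have key : ∀ c k : ℕ, c * k = Nat.card (SpecialLinearGroup (Fin 3) M4) → ¬ 9 ∣ c → k ≠ k3 := by
    intro c k h1 h2 h3
    subst h3
    apply h2
    have : 9 * q * k = c * k := by rw [e3, h1]
    have := Nat.eq_of_mul_eq_mul_right hk3 this
    exact ⟨q, this.symm⟩
  have n1 := key _ _ e1 (by norm_num)
  have n2 := key _ _ e2 (by norm_num)
  have n7 := key _ _ e7 (by norm_num)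
  have n5 := key _ _ e5 (by norm_num)
  have key2 : ∀ c k c' k' : ℕ, c * k = Nat.card (SpecialLinearGroup (Fin 3) M4) →
      c' * k' = Nat.card (SpecialLinearGroup (Fin 3) M4) → c ≠ c' → k ≠ k' := by
    intro c k c' k' h1 h2 h3 h4
    subst h4
    have hk0 : 0 < k := by
      rcases Nat.eq_zero_or_pos k with h | h
      · rw [h, mul_zero] at h1
        exact absurd h1.symm hpos.ne'
      · exact h
    exact h3 (Nat.eq_of_mul_eq_mul_right hk0 (by rw [h1, h2]))
  have a12 := key2 _ _ _ _ e1 e2 (by norm_num)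
  have a17 := key2 _ _ _ _ e1 e7 (by norm_num)
  have a15 := key2 _ _ _ _ e1 e5 (by norm_num)
  have a27 := key2 _ _ _ _ e2 e7 (by norm_num)
  have a25 := key2 _ _ _ _ e2 e5 (by norm_num)
  have a75 := key2 _ _ _ _ e7 e5 (by norm_num)
  rw [Finset.card_insert_of_notMem, Finset.card_insert_of_notMem, Finset.card_insert_of_notMem,
    Finset.card_insert_of_notMem, Finset.card_singleton]
  · simpa using n5
  · simp [n7, a75]
  · simp [n2, a27, a25]
  · simp [n1, a12, a17, a15]

/-- The class sizes of `L₃(4)`. -/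
theorem l34_five {F : Type} [Field F] [Fintype F] (hF : Fintype.card F = 4) :
    5 ≤ Set.ncard {k : ℕ | ∃ x : Matrix.ProjectiveSpecialLinearGroup (Fin 3) F,
      x ∉ Subgroup.center (Matrix.ProjectiveSpecialLinearGroup (Fin 3) F) ∧
      k = (Subgroup.centralizer ({x} :
        Set (Matrix.ProjectiveSpecialLinearGroup (Fin 3) F))).index} := by
  have e : M4 ≃+* F := FiniteField.ringEquivOfCardEq (by rw [M4.card_eq, hF])
  let E : SpecialLinearGroup (Fin 3) M4 ≃* SpecialLinearGroup (Fin 3) F :=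
    { toFun := Matrix.SpecialLinearGroup.map e.toRingHom
      invFun := Matrix.SpecialLinearGroup.map e.symm.toRingHom
      left_inv := fun A => by
        ext i j
        simp
      right_inv := fun A => by
        ext i j
        simp
      map_mul' := map_mul _ }
  have hE : (Subgroup.center (SpecialLinearGroup (Fin 3) M4)).map (E : _ →* _) =
      Subgroup.center (SpecialLinearGroup (Fin 3) F) := by
    ext g
    rw [Subgroup.mem_map]
    constructor
    · rintro ⟨x, hx, rfl⟩
      rw [Subgroup.mem_center_iff] at hx ⊢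
      intro g
      have := congrArg E (hx (E.symm g))
      rw [map_mul, map_mul, MulEquiv.apply_symm_apply] at this
      exact this
    · intro hg
      refine ⟨E.symm g, ?_, E.apply_symm_apply g⟩
      rw [Subgroup.mem_center_iff] at hg ⊢
      intro x
      apply E.injective
      rw [map_mul, map_mul, MulEquiv.apply_symm_apply]
      exact hg (E x)
  have E2 : ProjectiveSpecialLinearGroup (Fin 3) M4 ≃* ProjectiveSpecialLinearGroup (Fin 3) F :=
    QuotientGroup.congr _ _ E hE
  have h1 : sizes (ProjectiveSpecialLinearGroup (Fin 3) M4) =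
      sizes (ProjectiveSpecialLinearGroup (Fin 3) F) :=
    Set.Subset.antisymm (sizes_sub E2) (sizes_sub E2.symm)
  have h2 := five_M4
  rw [h1] at h2
  exact h2

end Cfsg.Agent.H805.LThreeFour

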